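import Mathlib
import Cfsg.Agent.Lib.Helper49.RUW.Defs
import Cfsg.Agent.Lib.Helper87.PGroupFrattini

/-!
# Project RUW, package [STAGEA]: the numerics `|T| = 2^14`, `|W| = 2^11`, `Φ(W) = Z₃(T)`.
-/

set_option autoImplicit false

namespace Cfsg.Agent.Lib.Helper32.RUW

open Cfsg.Agent.Lib.Helper49.RUW
open scoped commutatorElement

universe u

/-- The arithmetic of Stage A. -/
theorem stageA_num (j a b c d idx t : ℕ) (hj : j ≤ 3) (h1 : a * 2 ^ j ≤ b ^ 2)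
    (h2 : b * 2 ^ j ≤ c ^ 2) (h3 : c * 2 ^ j ≤ d ^ 2) (hd : d ≤ 2 ^ (j + 1))
    (hai : a * idx = t) (hidx : idx ≤ 8) (ht : 2 ^ 14 ≤ t) :
    j = 3 ∧ a = 2 ^ 11 ∧ idx = 8 ∧ t = 2 ^ 14 := by
  have key : ∀ A : ℕ, a ≤ A → A ≤ 2 ^ 11 → a = 2 ^ 11 ∧ A = 2 ^ 11 ∧ idx = 8 ∧ t = 2 ^ 14 := by
    intro A haA hA
    have ha : a ≤ 2 ^ 11 := haA.trans hA
    have h5 : a * idx ≤ 2 ^ 11 * 8 := Nat.mul_le_mul ha hidx
    have ht2 : t = 2 ^ 14 := by rw [hai] at h5; norm_num at h5 ht ⊢; omega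
    have ha2 : a = 2 ^ 11 := by
      by_contra hne
      have hlt : a ≤ 2 ^ 11 - 1 := by
        have : a < 2 ^ 11 := lt_of_le_of_ne ha hne
        omega
      have h6 : a * idx ≤ (2 ^ 11 - 1) * 8 := Nat.mul_le_mul hlt hidx
      rw [hai, ht2] at h6
      norm_num at h6
    refine ⟨ha2, ?_, ?_, ht2⟩
    · omega
    · rw [ha2, ht2] at hai
      norm_num at hai ⊢
      omega
  interval_cases j
  · -- j = 0
    norm_num at h1 h2 h3 hd
    have hd2 : d ^ 2 ≤ 2 ^ 2 := Nat.pow_le_pow_left hd 2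
    have hc : c ≤ 4 := by norm_num at hd2; omega
    have hc2 : c ^ 2 ≤ 4 ^ 2 := Nat.pow_le_pow_left hc 2
    have hb : b ≤ 16 := by norm_num at hc2; omega
    have hb2 : b ^ 2 ≤ 16 ^ 2 := Nat.pow_le_pow_left hb 2
    have ha : a ≤ 256 := by norm_num at hb2; omega
    have := key 256 ha (by norm_num)
    norm_num at this
  · norm_num at h1 h2 h3 hd
    have hd2 : d ^ 2 ≤ 4 ^ 2 := Nat.pow_le_pow_left hd 2
    have hc : c ≤ 8 := by norm_num at hd2; omega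
    have hc2 : c ^ 2 ≤ 8 ^ 2 := Nat.pow_le_pow_left hc 2
    have hb : b ≤ 32 := by norm_num at hc2; omega
    have hb2 : b ^ 2 ≤ 32 ^ 2 := Nat.pow_le_pow_left hb 2
    have ha : a ≤ 512 := by norm_num at hb2; omega
    have := key 512 ha (by norm_num)
    norm_num at this
  · norm_num at h1 h2 h3 hd
    have hd2 : d ^ 2 ≤ 8 ^ 2 := Nat.pow_le_pow_left hd 2
    have hc : c ≤ 16 := by norm_num at hd2; omega
    have hc2 : c ^ 2 ≤ 16 ^ 2 := Nat.pow_le_pow_left hc 2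
    have hb : b ≤ 64 := by norm_num at hc2; omega
    have hb2 : b ^ 2 ≤ 64 ^ 2 := Nat.pow_le_pow_left hb 2
    have ha : a ≤ 1024 := by norm_num at hb2; omega
    have := key 1024 ha (by norm_num)
    norm_num at this
  · norm_num at h1 h2 h3 hd
    have hd2 : d ^ 2 ≤ 16 ^ 2 := Nat.pow_le_pow_left hd 2
    have hc : c ≤ 32 := by norm_num at hd2; omega
    have hc2 : c ^ 2 ≤ 32 ^ 2 := Nat.pow_le_pow_left hc 2
    have hb : b ≤ 128 := by norm_num at hc2; omega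
    have hb2 : b ^ 2 ≤ 128 ^ 2 := Nat.pow_le_pow_left hb 2
    have ha : a ≤ 2048 := by norm_num at hb2; omega
    obtain ⟨h1', -, h3', h4'⟩ := key 2048 ha (by norm_num)
    exact ⟨rfl, h1', h3', h4'⟩

/-- [STAGEA] -/
theorem pkgStageA (hUcs : PkgUcs.{u}) (hNormZ : PkgNormZ.{u}) (hTower : PkgTower.{u})
    (hChain : PkgChain.{u}) : PkgStageA.{u} := by
  intro T _ _ hT h14 hZ4 W hW hfr
  classical
  have : Fact (Nat.Prime 2) := ⟨Nat.prime_two⟩
  have h16 : 16 < Nat.card T := lt_of_lt_of_le (by norm_num) h14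
  obtain ⟨c1, c2, c3⟩ := hUcs hT hZ4 h16
  obtain ⟨X₁, g₁, g₂, g₃, hS, -, -, hidx⟩ := hTower hT c1 c2 c3
  rw [← hW] at hS hidx
  have hWn : W.Normal := hS.Wn
  have hΦn : ((frattini ↥W).map W.subtype).Normal :=
    ConjAct.normal_of_characteristic_of_normal
  have hΦW : (frattini ↥W).map W.subtype ≤ W := Subgroup.map_subtype_le _
  have cΦ : Nat.card ↥((frattini ↥W).map W.subtype) = Nat.card ↥(frattini ↥W) :=
    Subgroup.card_map_of_injective (Subgroup.subtype_injective W)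
  obtain ⟨j, hj⟩ : ∃ j, Nat.card ↥((frattini ↥W).map W.subtype) = 2 ^ j :=
    IsPGroup.iff_card.mp (hT.to_subgroup _)
  have hj3 : j ≤ 3 := by
    have h8 : 2 ^ j ≤ 2 ^ 3 := by rw [← hj, cΦ]; exact hfr
    exact (Nat.pow_le_pow_iff_right (by norm_num)).mp h8
  have hΦZ : (frattini ↥W).map W.subtype ≤ Subgroup.upperCentralSeries T j :=
    hNormZ hT _ hΦn j (by rw [hj])
  have hcards : ∀ i : ℕ, i ≤ 4 → Nat.card ↥(Subgroup.upperCentralSeries T i) = 2 ^ i := by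
    intro i hi
    interval_cases i
    · rw [Subgroup.upperCentralSeries_zero, Subgroup.card_bot]; norm_num
    · rw [c1]; norm_num
    · rw [c2]; norm_num
    · rw [c3]; norm_num
    · rw [hZ4]; norm_num
  have hΦeq : (frattini ↥W).map W.subtype = Subgroup.upperCentralSeries T j :=
    Subgroup.eq_of_le_of_card_ge hΦZ (by rw [hcards j (by omega), hj])
  have hW2 : IsPGroup 2 ↥W := hT.to_subgroup W
  have hsq : ∀ p ∈ W, p * p ∈ (frattini ↥W).map W.subtype := by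
    intro p hp
    have h1 : (⟨p, hp⟩ : ↥W) ^ 2 ∈ frattini ↥W :=
      Cfsg.Agent.Lib.Helper87.pow_p_mem_frattini hW2 _
    have h2 : W.subtype ((⟨p, hp⟩ : ↥W) ^ 2) ∈ (frattini ↥W).map W.subtype :=
      Subgroup.mem_map_of_mem _ h1
    simpa [pow_two] using h2
  have hcm : ∀ p ∈ W, ∀ q ∈ W, p * q * p⁻¹ * q⁻¹ ∈ (frattini ↥W).map W.subtype := by
    intro p hp q hq
    have h1 : (⟨p, hp⟩ : ↥W) * ⟨q, hq⟩ * (⟨p, hp⟩ : ↥W)⁻¹ * (⟨q, hq⟩ : ↥W)⁻¹ ∈ frattini ↥W :=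
      Cfsg.Agent.Lib.Helper87.comm_mem_frattini hW2 _ _
    have h2 := Subgroup.mem_map_of_mem W.subtype h1
    simpa using h2
  obtain ⟨P₁, P₂, P₃, hC⟩ := hChain W X₁ _ _ g₁ g₂ g₃ hS hΦn hΦW hsq hcm
  have hP3 : P₃ ≤ Subgroup.upperCentralSeries T (j + 1) := by
    intro p hp
    rw [Subgroup.mem_upperCentralSeries_succ_iff]
    intro y
    have h := hC.fixT p hp y
    have h2 : ⁅p, y⁆ = (p * cg y p * p⁻¹)⁻¹ := by
      simp [cg, commutatorElement_def, mul_assoc]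
    rw [h2, ← hΦeq]
    exact Subgroup.inv_mem _ (hΦn.conj_mem _ h p)
  have cP3 : Nat.card ↥P₃ ≤ 2 ^ (j + 1) := by
    have := Subgroup.card_le_of_le hP3
    rwa [hcards (j + 1) (by omega)] at this
  have hnum := stageA_num j (Nat.card ↥W) (Nat.card ↥P₁) (Nat.card ↥P₂) (Nat.card ↥P₃)
    W.index (Nat.card T) hj3 (by have := hC.c1; rwa [hj] at this)
    (by have := hC.c2; rwa [hj] at this) (by have := hC.c3; rwa [hj] at this) cP3
    (Subgroup.card_mul_index W) hidx h14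
  obtain ⟨hj', hW', hidx', hT'⟩ := hnum
  subst hj'
  exact ⟨hT', hW', hWn, hidx', c1, c2, c3, hZ4, hΦeq⟩

end Cfsg.Agent.Lib.Helper32.RUW
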