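import Mathlib
import Cfsg.Agent.Lib.Helper49.RUW.Defs
import Cfsg.Agent.Lib.Helper87.PGroupFrattini

/-!
# Project RUW, package [WC]: `W = C_T(Z₃(T))` is weakly closed in `T`.
-/

set_option autoImplicit false

namespace Cfsg.Agent.Lib.Helper32.RUW

open Cfsg.Agent.Lib.Helper49.RUW

universe u

theorem card_mul_relIndex_of_le {G : Type*} [Group G] {A P : Subgroup G} (h : A ≤ P) :
    Nat.card A * A.relIndex P = Nat.card P := by
  have := Subgroup.relIndex_mul_relIndex ⊥ A P bot_le h
  rwa [Subgroup.relIndex_bot_left, Subgroup.relIndex_bot_left] at this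

/-- The abstract core of [WC], inside the ambient group. -/
theorem wc_core {G : Type u} [Group G] [Finite G] (hCompl : PkgCompl.{u})
    (P Wu Z : Subgroup G) (hWP : Wu ≤ P) (hZW : Z ≤ Wu)
    (cP : Nat.card P = 2 ^ 14) (cW : Nat.card Wu = 2 ^ 11) (cZ : Nat.card Z = 8)
    (hsq : ∀ w ∈ Wu, w * w ∈ Z)
    (hcen : ∀ w ∈ Wu, ∀ z ∈ Z, w * z = z * w)
    (hC : ∀ x ∈ P, (∀ z ∈ Z, x * z = z * x) → x ∈ Wu)
    (hd : ∀ U : Subgroup G, U ≤ Wu → Nat.card Wu ≤ 16 * Nat.card U → Z ≤ U)
    (g : G) (hX : Wu.map (MulAut.conj g).toMonoidHom ≤ P) :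
    Wu.map (MulAut.conj g).toMonoidHom = Wu := by
  classical
  set c : G →* G := (MulAut.conj g).toMonoidHom with hc
  have hinj : Function.Injective c := (MulAut.conj g).injective
  have hsurj : Function.Surjective c := (MulAut.conj g).surjective
  set X : Subgroup G := Wu.map c with hXdef
  set Zg : Subgroup G := Z.map c with hZgdef
  have cX : Nat.card X = 2 ^ 11 := by
    rw [hXdef, Subgroup.card_map_of_injective hinj, cW]
  have cZg : Nat.card Zg = 8 := by
    rw [hZgdef, Subgroup.card_map_of_injective hinj, cZ]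
  have hsqX : ∀ w ∈ X, w * w ∈ Zg := by
    rintro w ⟨v, hv, rfl⟩
    exact ⟨v * v, hsq v hv, by simp⟩
  have hcenX : ∀ w ∈ X, ∀ z ∈ Zg, w * z = z * w := by
    rintro w ⟨v, hv, rfl⟩ z ⟨y, hy, rfl⟩
    rw [← map_mul, ← map_mul, hcen v hv y hy]
  have hdX : ∀ U : Subgroup G, U ≤ X → Nat.card X ≤ 16 * Nat.card U → Zg ≤ U := by
    intro U hUX hcard
    have hmap : (U.comap c).map c = U := Subgroup.map_comap_eq_self_of_surjective hsurj U
    have hle : U.comap c ≤ Wu := by
      intro x hx
      obtain ⟨v, hv, hvx⟩ := hUX (Subgroup.mem_comap.mp hx)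
      have : v = x := hinj hvx
      rwa [← this]
    have hcardU : Nat.card (U.comap c) = Nat.card U := by
      rw [← Subgroup.card_map_of_injective hinj (K := U.comap c), hmap]
    have h1 : Z ≤ U.comap c := hd _ hle (by rw [hcardU, cW]; rw [cX] at hcard; exact hcard)
    calc Zg = Z.map c := rfl
      _ ≤ (U.comap c).map c := Subgroup.map_mono h1
      _ = U := hmap
  -- the intersection
  set I : Subgroup G := X ⊓ Wu with hI
  have hIP : I ≤ P := inf_le_right.trans hWP
  have rX : X.relIndex P = 8 := by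
    have h := card_mul_relIndex_of_le hX
    rw [cX, cP] at h
    have : (2 : ℕ) ^ 11 * X.relIndex P = 2 ^ 11 * 8 := by rw [h]; norm_num
    exact Nat.eq_of_mul_eq_mul_left (by norm_num) this
  have rW : Wu.relIndex P = 8 := by
    have h := card_mul_relIndex_of_le hWP
    rw [cW, cP] at h
    have : (2 : ℕ) ^ 11 * Wu.relIndex P = 2 ^ 11 * 8 := by rw [h]; norm_num
    exact Nat.eq_of_mul_eq_mul_left (by norm_num) this
  have rI : I.relIndex P ≤ 64 := by
    have := Subgroup.relIndex_inf_le (H := X) (K := Wu) (L := P)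
    rw [rX, rW] at this
    exact this
  have cI : 256 ≤ Nat.card I := by
    have h := card_mul_relIndex_of_le hIP
    rw [cP] at h
    have h2 : Nat.card I * I.relIndex P ≤ Nat.card I * 64 := Nat.mul_le_mul_left _ rI
    rw [h] at h2
    norm_num at h2
    omega
  have ZI : Z ≤ I := hd I inf_le_right (by rw [cW]; norm_num; omega)
  have ZgI : Zg ≤ I := hdX I inf_le_left (by rw [cX]; norm_num; omega)
  have hHZ : Z ⊓ Zg = Z := by
    by_contra hne
    obtain ⟨U, hUI, hnZU, hcU⟩ := hCompl I (Z ⊓ Zg) Z inf_le_left ZI hne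
      (fun w hw => ⟨hsq w hw.2, hsqX w hw.1⟩)
      (fun k hk h hh => by
        have : k * h * k⁻¹ = h := by
          rw [hcen k hk.2 h hh.1, mul_inv_cancel_right]
        rw [this]; exact hh)
    exact hnZU (hd U (hUI.trans inf_le_right) (by rw [cW]; norm_num; omega))
  have hZle : Z ≤ Zg := inf_eq_left.mp hHZ
  have hZeq : Z = Zg := Subgroup.eq_of_le_of_card_ge hZle (by rw [cZ, cZg])
  have hXW : X ≤ Wu := by
    intro x hx
    refine hC x (hX hx) (fun z hz => ?_)
    exact hcenX x hx z (hZeq ▸ hz)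
  exact Subgroup.eq_of_le_of_card_ge hXW (by rw [cX, cW])

/-- [WC] -/
theorem pkgWC (h74 : Stmt3174.{u}) (hCompl : PkgCompl.{u}) : PkgWC.{u} := by
  intro G _ _ T h14 hZ4 W hW hfr hd
  classical
  have hT2 : IsPGroup 2 ↥(T : Subgroup G) := T.isPGroup'
  obtain ⟨c14, hcomm, hfrat, -, cZ3, -, -, cQ, -⟩ := h74 hT2 h14 hZ4 W hW hfr hd
  have : Fact (Nat.Prime 2) := ⟨Nat.prime_two⟩
  have hW2 : IsPGroup 2 ↥W := hT2.to_subgroup W
  have hZ3W : Subgroup.upperCentralSeries ↥(T : Subgroup G) 3 ≤ W := by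
    rw [← hfrat]; exact Subgroup.map_subtype_le _
  have hsubinj : Function.Injective (T : Subgroup G).subtype := Subgroup.subtype_injective _
  have cWt : Nat.card ↥W = 2 ^ 11 := by
    have h1 := Subgroup.card_eq_card_quotient_mul_card_subgroup (commutator ↥W)
    have h2 : Nat.card ↥(commutator ↥W) = 8 := by
      rw [← Subgroup.card_map_of_injective (Subgroup.subtype_injective W) (K := commutator ↥W),
        hcomm, cZ3]
    rw [h1, cQ, h2]; norm_num
  refine ⟨Subgroup.map_subtype_le _, fun g hg => ?_⟩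
  refine wc_core hCompl (T : Subgroup G) (W.map (T : Subgroup G).subtype)
    ((Subgroup.upperCentralSeries ↥(T : Subgroup G) 3).map (T : Subgroup G).subtype)
    (Subgroup.map_subtype_le _) (Subgroup.map_mono hZ3W) c14 ?_ ?_ ?_ ?_ ?_ ?_ g hg
  · rw [Subgroup.card_map_of_injective hsubinj, cWt]
  · rw [Subgroup.card_map_of_injective hsubinj, cZ3]
  · -- squares
    rintro w ⟨w', hw', rfl⟩
    have h1 : (⟨w', hw'⟩ : ↥W) ^ 2 ∈ frattini ↥W :=
      Cfsg.Agent.Lib.Helper87.pow_p_mem_frattini hW2 _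
    have h2 : W.subtype ((⟨w', hw'⟩ : ↥W) ^ 2) ∈ (frattini ↥W).map W.subtype :=
      Subgroup.mem_map_of_mem _ h1
    rw [hfrat] at h2
    refine ⟨w' * w', ?_, by simp⟩
    simpa [pow_two] using h2
  · -- W centralizes Z3
    rintro w ⟨w', hw', rfl⟩ z ⟨z', hz', rfl⟩
    have hw'' : w' ∈ W := hw'
    rw [hW, Subgroup.mem_centralizer_iff] at hw''
    have := hw'' z' hz'
    rw [← map_mul, ← map_mul, this]
  · -- centralizer of Z3 in T is W
    intro x hx hxz
    refine ⟨⟨x, hx⟩, ?_, rfl⟩
    show (⟨x, hx⟩ : ↥(T : Subgroup G)) ∈ W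
    rw [hW, Subgroup.mem_centralizer_iff]
    intro z' hz'
    apply Subtype.ext
    have := hxz ((T : Subgroup G).subtype z') (Subgroup.mem_map_of_mem _ hz')
    simpa using this.symm
  · -- the index condition
    intro U hUW hcard
    set φ : ↥W →* G := (T : Subgroup G).subtype.comp W.subtype with hφ
    have hφinj : Function.Injective φ := hsubinj.comp (Subgroup.subtype_injective W)
    have hUr : U ≤ φ.range := by
      intro x hx
      obtain ⟨w', hw', rfl⟩ := hUW hx
      exact ⟨⟨w', hw'⟩, rfl⟩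
    have hmap : (U.comap φ).map φ = U := by
      rw [Subgroup.map_comap_eq]; exact inf_eq_right.mpr hUr
    have hcardU : Nat.card ↥(U.comap φ) = Nat.card ↥U := by
      rw [← Subgroup.card_map_of_injective hφinj (K := U.comap φ), hmap]
    have hidx : (U.comap φ).index ≤ 16 := by
      have h1 := Subgroup.card_mul_index (U.comap φ)
      rw [hcardU, cWt] at h1
      rw [Subgroup.card_map_of_injective hsubinj, cWt] at hcard
      have hpos : 0 < Nat.card ↥U := Nat.card_pos
      by_contra hlt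
      push Not at hlt
      have : Nat.card ↥U * 17 ≤ Nat.card ↥U * (U.comap φ).index :=
        Nat.mul_le_mul_left _ hlt
      omega
    have h3 := hd (U.comap φ) hidx
    calc (Subgroup.upperCentralSeries ↥(T : Subgroup G) 3).map (T : Subgroup G).subtype
        = ((frattini ↥W).map W.subtype).map (T : Subgroup G).subtype := by rw [hfrat]
      _ = (frattini ↥W).map φ := by rw [Subgroup.map_map]
      _ ≤ (U.comap φ).map φ := Subgroup.map_mono h3
      _ = U := hmap

end Cfsg.Agent.Lib.Helper32.RUW
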